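import Cfsg.Agent.Lib.Suz2.Lin

/-!
The arithmetic of `d = (2 ^ n - 1) / e` with `e ∣ n`.
-/

set_option autoImplicit false

namespace Cfsg.Agent.Suz2

set_option synthInstance.maxSize 1024 in
theorem num_small : ∀ n < 13, ∀ e ≤ n, 2 ≤ n → e ∣ n → e ∣ 2 ^ n - 1 → n < (2 ^ n - 1) / e ∧
    ∀ j < n, ∀ k < n, (1 + 2 ^ j) % ((2 ^ n - 1) / e) = 2 ^ k % ((2 ^ n - 1) / e) → j = 0 := by
  decide +kernel

theorem six_mul_lt_two_pow {g : ℕ} (hg : 5 ≤ g) : 6 * g < 2 ^ g := by
  induction g, hg using Nat.le_induction with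
  | base => norm_num
  | succ n _ ih => rw [pow_succ]; omega

theorem num_large {n d e : ℕ} (hn : 13 ≤ n) (h : d * e = 2 ^ n - 1) (he : e ≤ n) :
    n < d ∧ ∀ j < n, ∀ k < n, 1 + 2 ^ j ≡ 2 ^ k [MOD d] → j = 0 := by
  obtain ⟨g, t, hgt, h1, h2⟩ : ∃ g t, n = t + g ∧ n ≤ 3 * g ∧ 3 * g ≤ n + 2 :=
    ⟨(n + 2) / 3, n - (n + 2) / 3, by omega, by omega, by omega⟩
  have h3 := six_mul_lt_two_pow (g := g) (by omega)
  have h4 : 2 * 2 ^ t < d := by
    by_contra hle
    push Not at hle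
    have h5 : 0 < 2 ^ t := by positivity
    have h6 : 1 < 2 ^ t := Nat.one_lt_two_pow (by omega)
    have h7 : d * e ≤ 2 * 2 ^ t * (3 * g) := Nat.mul_le_mul hle (by omega)
    have h8 : 2 ^ t * (6 * g + 1) ≤ 2 ^ t * 2 ^ g := Nat.mul_le_mul_left _ h3
    rw [h, hgt, pow_add] at h7
    have : 2 * 2 ^ t * (3 * g) + 2 ^ t = 2 ^ t * (6 * g + 1) := by ring
    omega
  have hn1 : 2 ^ n ≡ 1 [MOD d] :=
    ((Nat.modEq_iff_dvd' Nat.one_le_two_pow).2 ⟨e, h.symm⟩).symm
  have pw : ∀ a b, a = b ∨ a = b + n → 2 ^ a ≡ 2 ^ b [MOD d] := by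
    rintro a b (rfl | rfl)
    · rfl
    · simpa [pow_add] using hn1.mul_left (2 ^ b)
  have key : ∀ a b c, a ≤ t → b ≤ t → c ≤ t → 2 ^ a + 2 ^ b ≡ 2 ^ c [MOD d] → a = b := by
    intro a b c ha hb hc e
    have a1 := Nat.pow_le_pow_right two_pos ha
    have a2 := Nat.pow_le_pow_right two_pos hb
    have a3 := Nat.pow_le_pow_right two_pos hc
    have e' := Nat.ModEq.eq_of_lt_of_lt e (by omega) (by omega)
    wlog hab : a < b generalizing a b
    · by_contra hne
      exact hne (this b a hb ha (add_comm (2 ^ a) _ ▸ e) a2 a1 (add_comm (2 ^ a) _ ▸ e')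
        (by omega)).symm
    have b1 : 2 ^ a < 2 ^ b := Nat.pow_lt_pow_right one_lt_two hab
    have b2 : 0 < 2 ^ a := by positivity
    have b3 : b < c := (Nat.pow_lt_pow_iff_right one_lt_two).1 (by omega)
    have b4 := Nat.pow_le_pow_right two_pos (Nat.succ_le_of_lt b3)
    rw [pow_succ] at b4
    omega
  refine ⟨?_, fun j hj k hk e => ?_⟩
  · have := Nat.lt_two_pow_self (n := t)
    omega
  have sh : ∀ s a b c, a ≤ t → b ≤ t → c ≤ t → (s = a ∨ s = a + n) → (j + s = b ∨ j + s = b + n) →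
      (k + s = c ∨ k + s = c + n) → a = b := fun s a b c ha hb hc e1 e2 e3 => by
    refine key a b c ha hb hc ((((pw _ _ e1).add (pw _ _ e2)).symm.trans ?_).trans (pw _ _ e3))
    simpa [pow_add, add_mul] using e.mul_right (2 ^ s)
  by_contra hne
  rcases le_total j k with hjk | hjk
  · by_cases c1 : k ≤ t
    · exact hne (sh 0 0 j k (by omega) (by omega) c1 (by omega) (by omega) (by omega)).symm
    by_cases c2 : g ≤ j
    · have := sh (n - j) (n - j) 0 (k - j) (by omega) (by omega) (by omega) (by omega) (by omega)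
        (by omega)
      omega
    · have := sh (n - k) (n - k) (j + (n - k)) 0 (by omega) (by omega) (by omega) (by omega)
        (by omega) (by omega)
      omega
  · by_cases c1 : j ≤ t
    · exact hne (sh 0 0 j k (by omega) c1 (by omega) (by omega) (by omega) (by omega)).symm
    by_cases c2 : g ≤ k
    · have := sh (n - k) (n - k) (j - k) 0 (by omega) (by omega) (by omega) (by omega) (by omega)
        (by omega)
      have := sh (n - k) (n - k) (j - k) 0 (by omega) (by omega) (by omega) (by omega) (by omega)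
        (by omega)
      omega
    · have := sh (n - j) (n - j) 0 (k + (n - j)) (by omega) (by omega) (by omega) (by omega)
        (by omega) (by omega)
      omega

theorem num_of_dvd {n d : ℕ} (hn : 2 ≤ n) (h1 : d ∣ 2 ^ n - 1) (h2 : 2 ^ n - 1 ∣ d * n) :
    Num n d := by
  obtain ⟨e, he⟩ := h1
  have h0 : 0 < 2 ^ n - 1 := by have := Nat.one_lt_two_pow (n := n) (by omega); omega
  have hd : 0 < d := Nat.pos_of_ne_zero fun e' => by rw [e', zero_mul] at he; omega
  have he0 : 0 < e := Nat.pos_of_ne_zero fun e' => by rw [e', mul_zero] at he; omega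
  have h3 : e ∣ n := Nat.dvd_of_mul_dvd_mul_left hd (he ▸ h2)
  have h4 := Nat.le_of_dvd (by omega) h3
  have key : n < d ∧ ∀ j < n, ∀ k < n, 1 + 2 ^ j ≡ 2 ^ k [MOD d] → j = 0 := by
    by_cases h : n < 13
    · have := num_small n h e h4 hn h3 ⟨d, by rw [he, mul_comm]⟩
      rwa [he, Nat.mul_div_cancel _ he0] at this
    · exact num_large (by omega) he.symm h4
  refine ⟨by omega, ⟨e, he⟩, fun k h0 hk hdk => h0.ne' (key.2 k hk 1 (by omega) ?_),
    Nat.not_dvd_of_pos_of_lt (by omega) key.1, key.2⟩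
  exact ((Nat.modEq_iff_dvd' Nat.one_le_two_pow).2 hdk).symm.add_left 1

end Cfsg.Agent.Suz2
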